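import Cfsg.Agent.H31.FR.Lift

/-!
# Siegel elements of the 9-dimensional module are root elements of `F₄(K)` (helper296; S2452, box R2b)

* `Ph_rr` : for the seven indices `k` of the 7-dimensional space, the root element `x_{rr k}(t)` centralizes the
  involution `t₁` and acts on the 9-dimensional space as the Siegel element `sgl (Pi.single k (ss k * t))`.
-/

set_option autoImplicit false
set_option linter.unusedSectionVars false
set_option linter.unusedSimpArgs false

namespace Cfsg.Agent.H296.FR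

open Cfsg Cfsg.Lie Module Matrix
open Cfsg.Agent.ChevalleyStructure Cfsg.Agent.ChevalleyStructure.Elts
open Cfsg.Agent.ChevalleyStructure.E6Min.Tables Cfsg.Agent.ChevalleyStructure.E6Min.Basic
open Cfsg.Agent.H952.F4 Cfsg.Agent.H952.F4.Jord
open Cfsg.Agent.LieClassical Cfsg.Agent.LieClassical.OrthForms Cfsg.Agent.LieClassical.OrthCore
open Cfsg.Agent.H557.InvF4 Cfsg.Agent.OddHalf.NI.ModelChev
open Cfsg.Agent.Tits.Roots Cfsg.Agent.Nodes.BNOf Cfsg.Agent.Nodes.RGDChev Cfsg.Agent.KFacts.RgdChevCoord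
open Cfsg.Agent.H885.Pw.JB Cfsg.Agent.H31.FR

universe u

variable {K : Type u} [Field K]

/-- the root indices -/
def rr : Unit ⊕ (Fin 3 ⊕ Fin 3) → ℕ := Sum.elim (fun _ => 20) (Sum.elim ![2, 16, 17] ![43, 26, 25])

/-- the signs -/
def ss (K : Type u) [Field K] : Unit ⊕ (Fin 3 ⊕ Fin 3) → K :=
  Sum.elim (fun _ => 1) (Sum.elim ![1, -1, 1] ![1, 1, -1])

/-- a root element -/
noncomputable abbrev xr (r : ℕ) (t : K) : ↥(chevF4.group K) := xc Cfsg.Agent.Nodes.KindF.isType (vec chevF4 4 r) t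

theorem xr_xMat {r : ℕ} (hr : r < 48) (t : K) :
    ((xr r t : GL chevF4.Idx K) : Matrix chevF4.Idx chevF4.Idx K) = chevF4.xMat K ⟨r, hr⟩ t := by
  rw [xr, coe_xc Cfsg.Agent.Nodes.KindF.isType hr, coe_xG, x_of_lt hr]

variable {ρ : ↥(chevF4.group K) →* GL I27 K}

theorem xr_apply (hρ : IsJ ρ) {r : ℕ} (hr : r < 48) (t : K) (x : I27 → K) :
    JK ρ (xr r t) x = yM r t *ᵥ x := by
  rw [Inv.JK_apply, hρ ⟨r, hr⟩ t (xr r t) (xr_xMat hr t)]

/-- one term -/
theorem xr_one (hρ : IsJ ρ) {r k : ℕ} {s : ℤ} (hr : r < 48) (hd : dat.getD r [] = [(k, s)]) (t : K) (x : I27 → K)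
    (i : I27) : JK ρ (xr r t) x i =
      x i + ((s : K) * t) * (((Cfsg.Agent.ChevalleyStructure.E6Min.Basic.sg k i : ℤ) : K) * x (sr k i)) := by
  rw [xr_apply hρ hr]
  have h1 : yM r t = zM k ((s : K) * t) := by
    unfold yM
    rw [hd]
    simp
  rw [h1, zM_mulVec]

/-- the commutation -/
theorem xr_comm_one (hρ : IsJ ρ) (hi : Function.Injective ρ) {r k : ℕ} {s : ℤ} (hr : r < 48)
    (hd : dat.getD r [] = [(k, s)])
    (hk : ∀ i : I27, Cfsg.Agent.ChevalleyStructure.E6Min.Basic.sg k i = 0 ∨ pl (sr k i) = pl i) (t : K) {u : ↥(chevF4.group K)}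
    (ht : IsT ρ u) : xr r t * u = u * xr r t := by
  apply JK_inj hi
  intro x
  rw [map_mul, map_mul, Module.End.mul_apply, Module.End.mul_apply]
  funext i
  rw [xr_one hρ hr hd, ht, ht, ht, xr_one hρ hr hd]
  rcases hk i with h | h
  · rw [h]
    simp
  · rw [h]
    split_ifs <;> ring

/-- the coordinate of the 27-dimensional space which belongs to an index of the 7-dimensional space -/
def cI : Fin 3 ⊕ Fin 3 → I27 := Sum.elim ![(1, 2, 0), (1, 2, 1), (1, 2, 2)] ![(2, 0, 2), (2, 1, 2), (2, 2, 2)]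

/-- the partner -/
def cJ : Fin 3 ⊕ Fin 3 → I27 := Sum.elim ![(2, 0, 2), (2, 1, 2), (2, 2, 2)] ![(1, 2, 0), (1, 2, 1), (1, 2, 2)]

/-- the partner -/
def sw : Fin 3 ⊕ Fin 3 → Fin 3 ⊕ Fin 3 := Sum.elim Sum.inr Sum.inl

theorem io_cI (y : VV K) (j : Fin 3 ⊕ Fin 3) : io y (cI j) = y (sh7 (.inr j)) := by
  rcases j with j | j <;> fin_cases j <;> simp [cI, io, ofM, sh7]

theorem io_cJ (y : VV K) (j : Fin 3 ⊕ Fin 3) : io y (cJ j) = y (sh7 (.inr (sw j))) := by
  rcases j with j | j <;> fin_cases j <;> simp [cJ, io, ofM, sh7, sw]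

theorem polar_jj_single (j : Fin 3 ⊕ Fin 3) (a : K) (y : VV K) :
    QuadraticMap.polar (oddForm 4 K) (jj (Pi.single (.inr j) a)) y = a * y (sh7 (.inr (sw j))) := by
  rw [jj_single, polar_oddForm, Fin.sum_univ_four]
  rcases j with j | j <;> fin_cases j <;> simp [sh7, sw, Pi.single_apply, mul_comm]

theorem Q_jj_single (j : Fin 3 ⊕ Fin 3) (a : K) : (oddForm 4 K) (jj (Pi.single (.inr j) a)) = 0 := by
  rw [Q_jj, coe_oddForm, quadFormOdd_apply, Fin.sum_univ_three]
  rcases j with j | j <;> fin_cases j <;> simp [Pi.single_apply]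

theorem sgl_single (j : Fin 3 ⊕ Fin 3) (a : K) (y : VV K) : sgl (Pi.single (.inr j) a) y =
    y + y (.inr (.inl 0)) • Pi.single (sh7 (.inr j)) a - (a * y (sh7 (.inr (sw j)))) • H31.FR.u0 K := by
  rw [sgl, siegel_apply, polar_jj_single, Q_jj_single, jj_single, polar_u0]
  simp

theorem io_u0 (i : I27) : io (H31.FR.u0 K) i = if i = (0, 1, 0) then 1 else 0 := by
  obtain ⟨a, b, c⟩ := i
  fin_cases a <;> fin_cases b <;> fin_cases c <;> simp [io, ofM, H31.FR.u0]

theorem io_single (j : Fin 3 ⊕ Fin 3) (a : K) (i : I27) :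
    io (Pi.single (sh7 (.inr j)) a) i = if i = cI j then a else 0 := by
  obtain ⟨p, b, c⟩ := i
  rcases j with j | j <;> fin_cases j <;> fin_cases p <;> fin_cases b <;> fin_cases c <;> simp [io, ofM, sh7, cI]

/-- **the long root elements** -/
theorem Ph_one (hρ : IsJ ρ) (h2 : (2 : K) ≠ 0) {r k : ℕ} {s : ℤ} (hr : r < 48) (hd : dat.getD r [] = [(k, s)])
    (j : Fin 3 ⊕ Fin 3) (b : ℤ)
    (hk : ∀ i : I27, Cfsg.Agent.ChevalleyStructure.E6Min.Basic.sg k i = 0 ∨ pl (sr k i) = pl i)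
    (htab : ∀ i : I27, pl i = true → Cfsg.Agent.ChevalleyStructure.E6Min.Basic.sg k i =
      if i = (0, 1, 0) then -b else if i = cI j then b else 0)
    (h1 : sr k ((0, 1, 0) : I27) = cJ j) (h3 : sr k (cI j) = (0, 0, 1)) (t : K) {u : ↥(chevF4.group K)} (ht : IsT ρ u)
    (hz : xr r t ∈ Subgroup.centralizer ({u} : Set ↥(chevF4.group K))) :
    Ph hρ h2 ht ⟨xr r t, hz⟩ = sgl (Pi.single (.inr j) ((s : K) * (b : K) * t)) := by
  apply LinearEquiv.ext
  intro y
  rw [sgl_single]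
  apply io_inj
  rw [io_Ph]
  funext i
  rw [xr_one hρ hr hd, map_sub, map_add, map_smul, map_smul]
  simp only [Pi.sub_apply, Pi.add_apply, Pi.smul_apply, smul_eq_mul, io_u0, io_single]
  by_cases hp : pl i = true
  swap
  · have hp' : pl i = false := by simpa using hp
    have e1 : i ≠ (0, 1, 0) := by rintro rfl; exact absurd hp' (by decide)
    have e2 : i ≠ cI j := by
      rintro rfl
      revert hp'
      rcases j with j | j <;> fin_cases j <;> decide
    rw [if_neg e1, if_neg e2, inJ_io _ i hp']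
    rcases hk i with h | h
    · rw [h]
      simp
    · rw [inJ_io _ (sr k i) (h.trans hp')]
      simp
  rw [htab i hp]
  by_cases e1 : i = (0, 1, 0)
  · subst e1
    have e2 : ((0, 1, 0) : I27) ≠ cI j := by rcases j with j | j <;> fin_cases j <;> decide
    rw [if_pos rfl, if_pos rfl, if_neg e2, h1, io_cJ]
    push_cast
    ring
  · rw [if_neg e1, if_neg e1]
    by_cases e2 : i = cI j
    · rw [if_pos e2, if_pos e2, e2, h3]
      have h5 : io y (0, 0, 1) = y (.inr (.inl 0)) := by simp [io, ofM]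
      rw [h5]
      ring
    · rw [if_neg e2, if_neg e2]
      simp

/-! ### the short root element -/

theorem xr_two (hρ : IsJ ρ) (t : K) (x : I27 → K) (i : I27) : JK ρ (xr 20 t) x i =
    x i + t * (((Cfsg.Agent.ChevalleyStructure.E6Min.Basic.sg 35 i : ℤ) : K) * x (sr 35 i)) -
      t * (((Cfsg.Agent.ChevalleyStructure.E6Min.Basic.sg 15 i : ℤ) : K) * (x (sr 15 i) +
        t * (((Cfsg.Agent.ChevalleyStructure.E6Min.Basic.sg 35 (sr 15 i) : ℤ) : K) * x (sr 35 (sr 15 i))))) := by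
  rw [xr_apply hρ (by norm_num)]
  have h1 : yM (20 : ℕ) t = zM 15 (-t) * zM 35 t := by
    show (List.map _ [(15, (-1 : ℤ)), (35, (1 : ℤ))]).prod = _
    simp
  rw [h1, ← Matrix.mulVec_mulVec, zM_mulVec, zM_mulVec, zM_mulVec]
  ring

theorem pl15 : ∀ i : I27, Cfsg.Agent.ChevalleyStructure.E6Min.Basic.sg 15 i = 0 ∨ pl (sr 15 i) = pl i := by
  decide +kernel

theorem pl35 : ∀ i : I27, Cfsg.Agent.ChevalleyStructure.E6Min.Basic.sg 35 i = 0 ∨ pl (sr 35 i) = pl i := by
  decide +kernel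

theorem xr_comm_two (hρ : IsJ ρ) (hi : Function.Injective ρ) (t : K) {u : ↥(chevF4.group K)} (ht : IsT ρ u) :
    xr 20 t * u = u * xr 20 t := by
  apply JK_inj hi
  intro x
  rw [map_mul, map_mul, Module.End.mul_apply, Module.End.mul_apply]
  funext i
  rw [xr_two hρ, ht, ht, ht, ht, ht, xr_two hρ]
  rcases pl15 i with h | h
  · rw [h]
    rcases pl35 i with h' | h'
    · rw [h']
      simp
    · rw [h']
      split_ifs <;> push_cast <;> ring
  · rw [h]
    rcases pl35 (sr 15 i) with h5 | h5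
    · rw [h5]
      rcases pl35 i with h' | h'
      · rw [h']
        split_ifs <;> push_cast <;> ring
      · rw [h']
        split_ifs <;> push_cast <;> ring
    · rw [h5, h]
      rcases pl35 i with h' | h'
      · rw [h']
        split_ifs <;> push_cast <;> ring
      · rw [h']
        split_ifs <;> push_cast <;> ring

theorem tab15 : ∀ i : I27, pl i = true → Cfsg.Agent.ChevalleyStructure.E6Min.Basic.sg 15 i =
    if i = (0, 1, 0) then 1 else if i = (0, 1, 1) then 1 else 0 := by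
  decide +kernel

theorem tab35 : ∀ i : I27, pl i = true → Cfsg.Agent.ChevalleyStructure.E6Min.Basic.sg 35 i =
    if i = (0, 0, 0) then 1 else if i = (0, 1, 0) then 1 else 0 := by
  decide +kernel

theorem sr15a : E6Min.Basic.sr 15 ((0, 1, 0) : I27) = (0, 0, 0) := by decide +kernel
theorem sr15b : E6Min.Basic.sr 15 ((0, 1, 1) : I27) = (0, 0, 1) := by decide +kernel
theorem sr35a : E6Min.Basic.sr 35 ((0, 0, 0) : I27) = (0, 0, 1) := by decide +kernel
theorem sr35b : E6Min.Basic.sr 35 ((0, 1, 0) : I27) = (0, 1, 1) := by decide +kernel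

theorem sgl_zero (a : K) (y : VV K) : sgl (Pi.single (.inl ()) a) y =
    y + y (.inr (.inl 0)) • Pi.single (.inl ()) a - (2 * a * y (.inl ())) • H31.FR.u0 K -
      (a * a * y (.inr (.inl 0))) • H31.FR.u0 K := by
  have h1 : (oddForm 4 K) (jj (Pi.single (.inl ()) a)) = a * a := by
    rw [Q_jj, coe_oddForm, quadFormOdd_apply, Fin.sum_univ_three]
    simp [pow_two]
  have h2 : QuadraticMap.polar (oddForm 4 K) (jj (Pi.single (.inl ()) a)) y = 2 * a * y (.inl ()) := by
    rw [jj_single, polar_oddForm, Fin.sum_univ_four]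
    simp [sh7]
  rw [sgl, siegel_apply, h1, h2, jj_single, polar_u0]
  rfl

theorem io_zero (a : K) (i : I27) : io (Pi.single (.inl ()) a) i =
    if i = (0, 0, 0) then a else if i = (0, 1, 1) then -a else 0 := by
  obtain ⟨p, b, c⟩ := i
  fin_cases p <;> fin_cases b <;> fin_cases c <;> simp [io, ofM]

/-- **the short root element** -/
theorem Ph_two (hρ : IsJ ρ) (h2 : (2 : K) ≠ 0) (t : K) {u : ↥(chevF4.group K)} (ht : IsT ρ u)
    (hz : xr 20 t ∈ Subgroup.centralizer ({u} : Set ↥(chevF4.group K))) :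
    Ph hρ h2 ht ⟨xr 20 t, hz⟩ = sgl (Pi.single (.inl ()) t) := by
  apply LinearEquiv.ext
  intro y
  rw [sgl_zero]
  apply io_inj
  rw [io_Ph]
  funext i
  rw [xr_two hρ, map_sub, map_sub, map_add, map_smul, map_smul, map_smul]
  simp only [Pi.sub_apply, Pi.add_apply, Pi.smul_apply, smul_eq_mul, io_u0, io_zero]
  by_cases hp : pl i = true
  swap
  · have hp' : pl i = false := by simpa using hp
    have e1 : i ≠ (0, 1, 0) := by rintro rfl; exact absurd hp' (by decide)
    have e2 : i ≠ (0, 0, 0) := by rintro rfl; exact absurd hp' (by decide)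
    have e3 : i ≠ (0, 1, 1) := by rintro rfl; exact absurd hp' (by decide)
    rw [if_neg e1, if_neg e2, if_neg e3, inJ_io _ i hp']
    have f1 : ((Cfsg.Agent.ChevalleyStructure.E6Min.Basic.sg 35 i : ℤ) : K) * io y (sr 35 i) = 0 := by
      rcases pl35 i with h | h
      · rw [h]
        simp
      · rw [inJ_io _ _ (h.trans hp'), mul_zero]
    have f2 : ((Cfsg.Agent.ChevalleyStructure.E6Min.Basic.sg 15 i : ℤ) : K) * (io y (sr 15 i) +
        t * (((Cfsg.Agent.ChevalleyStructure.E6Min.Basic.sg 35 (sr 15 i) : ℤ) : K) * io y (sr 35 (sr 15 i)))) = 0 := by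
      rcases pl15 i with h | h
      · rw [h]
        simp
      · rw [inJ_io _ _ (h.trans hp')]
        rcases pl35 (sr 15 i) with h' | h'
        · rw [h']
          simp
        · rw [inJ_io _ _ (h'.trans (h.trans hp'))]
          simp
    rw [f1, f2]
    simp
  rw [tab35 i hp, tab15 i hp]
  by_cases e1 : i = (0, 1, 0)
  · subst e1
    rw [sr15a, sr35b, tab35 (0, 0, 0) (by decide), sr35a]
    simp [io, ofM]
    ring
  · by_cases e2 : i = (0, 0, 0)
    · subst e2
      rw [sr35a]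
      simp [io, ofM]
      ring
    · by_cases e3 : i = (0, 1, 1)
      · subst e3
        rw [sr15b, tab35 (0, 0, 1) (by decide)]
        simp [io, ofM]
        ring
      · rw [if_neg e1, if_neg e1, if_neg e2, if_neg e2, if_neg e1, if_neg e3, if_neg e3]
        simp

/-! ### the seven elements -/

theorem xr_mem_one (hρ : IsJ ρ) (hi : Function.Injective ρ) {r k : ℕ} {s : ℤ} (hr : r < 48)
    (hd : dat.getD r [] = [(k, s)])
    (hk : ∀ i : I27, Cfsg.Agent.ChevalleyStructure.E6Min.Basic.sg k i = 0 ∨ pl (sr k i) = pl i) (t : K) {u : ↥(chevF4.group K)}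
    (ht : IsT ρ u) : xr r t ∈ Subgroup.centralizer ({u} : Set ↥(chevF4.group K)) :=
  Subgroup.mem_centralizer_singleton_iff.2 (xr_comm_one hρ hi hr hd hk t ht)

/-- all data of a long root index -/
def Good (r k : ℕ) (s : ℤ) (j : Fin 3 ⊕ Fin 3) (b : ℤ) : Prop :=
  r < 48 ∧ dat.getD r [] = [(k, s)] ∧
    (∀ i : I27, Cfsg.Agent.ChevalleyStructure.E6Min.Basic.sg k i = 0 ∨ pl (sr k i) = pl i) ∧
    (∀ i : I27, pl i = true → Cfsg.Agent.ChevalleyStructure.E6Min.Basic.sg k i =
      if i = (0, 1, 0) then -b else if i = cI j then b else 0) ∧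
    sr k ((0, 1, 0) : I27) = cJ j ∧ sr k (cI j) = (0, 0, 1)

instance (r k : ℕ) (s : ℤ) (j : Fin 3 ⊕ Fin 3) (b : ℤ) : Decidable (Good r k s j b) := by
  unfold Good
  infer_instance

theorem good2 : Good 2 53 (-1) (.inl 0) (-1) := by decide +kernel
theorem good16 : Good 16 8 (-1) (.inl 1) 1 := by decide +kernel
theorem good17 : Good 17 11 (-1) (.inl 2) (-1) := by decide +kernel
theorem good43 : Good 43 6 (-1) (.inr 0) (-1) := by decide +kernel
theorem good26 : Good 26 51 1 (.inr 1) 1 := by decide +kernel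
theorem good25 : Good 25 44 1 (.inr 2) (-1) := by decide +kernel

theorem of_good (hρ : IsJ ρ) (h2 : (2 : K) ≠ 0) (hi : Function.Injective ρ) {r k : ℕ} {s : ℤ} {j : Fin 3 ⊕ Fin 3} {b : ℤ}
    (H : Good r k s j b) (t : K) {u : ↥(chevF4.group K)} (ht : IsT ρ u) :
    ∃ hm : xr r t ∈ Subgroup.centralizer ({u} : Set ↥(chevF4.group K)),
      Ph hρ h2 ht ⟨xr r t, hm⟩ = sgl (Pi.single (.inr j) ((s : K) * (b : K) * t)) := by
  obtain ⟨h1, h3, h4, h5, h6, h7⟩ := H
  exact ⟨xr_mem_one hρ hi h1 h3 h4 t ht, Ph_one hρ h2 h1 h3 j b h4 h5 h6 h7 t ht _⟩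

/-- **R2b.** -/
theorem Ph_rr (hρ : IsJ ρ) (h2 : (2 : K) ≠ 0) (hi : Function.Injective ρ) (k : Unit ⊕ (Fin 3 ⊕ Fin 3)) (t : K)
    {u : ↥(chevF4.group K)} (ht : IsT ρ u) :
    ∃ hm : xc Cfsg.Agent.Nodes.KindF.isType (vec chevF4 4 (rr k)) t ∈
        Subgroup.centralizer ({u} : Set ↥(chevF4.group K)),
      Ph hρ h2 ht ⟨xc Cfsg.Agent.Nodes.KindF.isType (vec chevF4 4 (rr k)) t, hm⟩ =
        sgl (Pi.single k (ss K k * t)) := by
  rcases k with _ | k | k
  · refine ⟨Subgroup.mem_centralizer_singleton_iff.2 (xr_comm_two hρ hi t ht), ?_⟩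
    have h := Ph_two hρ h2 t ht (Subgroup.mem_centralizer_singleton_iff.2 (xr_comm_two hρ hi t ht))
    refine h.trans ?_
    congr 2
    simp [ss]
  · fin_cases k
    · have h := of_good hρ h2 hi good2 t ht
      simpa [ss, rr] using h
    · have h := of_good hρ h2 hi good16 t ht
      simpa [ss, rr] using h
    · have h := of_good hρ h2 hi good17 t ht
      simpa [ss, rr] using h
  · fin_cases k
    · have h := of_good hρ h2 hi good43 t ht
      simpa [ss, rr] using h
    · have h := of_good hρ h2 hi good26 t ht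
      simpa [ss, rr] using h
    · have h := of_good hρ h2 hi good25 t ht
      simpa [ss, rr] using h

end Cfsg.Agent.H296.FR
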