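import Cfsg.Agent.H572.FR.Emb
import Cfsg.Agent.H296.FR.RTwo

/-!
# The ratio bound in `F₄(q)`, `q ≥ 5` odd, without hypotheses (helper296; S2452)

* `sieg` : the Siegel identities; `ratio` : the embedding `e` of the seven dimensional space and the bound
  `‖χ(e w)‖ ≤ 2 / 25 * χ(1)`.
-/

set_option autoImplicit false
set_option linter.unusedSectionVars false

namespace Cfsg.Agent.H296.FR

open Cfsg Cfsg.Lie Module Matrix
open Cfsg.Agent.ChevalleyStructure Cfsg.Agent.ChevalleyStructure.Elts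
open Cfsg.Agent.ChevalleyStructure.E6Min.Tables Cfsg.Agent.ChevalleyStructure.E6Min.Basic
open Cfsg.Agent.H952.F4 Cfsg.Agent.H952.F4.Jord
open Cfsg.Agent.LieClassical Cfsg.Agent.LieClassical.OrthForms Cfsg.Agent.LieClassical.OrthCore
open Cfsg.Agent.H557.InvF4 Cfsg.Agent.OddHalf.NI.ModelChev
open Cfsg.Agent.Tits.Roots Cfsg.Agent.Nodes.BNOf Cfsg.Agent.Nodes.RGDChev Cfsg.Agent.KFacts.RgdChevCoord
open Cfsg.Agent.H885.Pw.JB

universe u

variable {K : Type u} [Field K]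

/-- the Siegel identities -/
theorem sieg {ρ : ↥(chevF4.group K) →* GL I27 K} (hρ : IsJ ρ) (h2 : (2 : K) ≠ 0) (hi : Function.Injective ρ) :
    H572.FR.Sieg hρ h2 := fun k t => Ph_rr hρ h2 hi k t (isT_t1 hρ)

/-- **the ratio bound** -/
theorem ratio [Finite K] (h2 : (2 : K) ≠ 0) (h5 : 5 ≤ Nat.card K) :
    ∃ e : Multiplicative (H572.FR.W7 K) →* ↥(chevF4.group K), Function.Injective e ∧
      (∀ h ∈ E (oddForm 3 K), ∃ g, ∀ w, g * e (.ofAdd w) * g⁻¹ = e (.ofAdd (h w))) ∧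
      (∀ k t, e (.ofAdd (Pi.single k (H572.FR.ss K k * t))) =
        xc Cfsg.Agent.Nodes.KindF.isType (vec chevF4 4 (H572.FR.rr k)) t) ∧
      ∀ {d : ℕ} (σ : Representation ℂ ↥(chevF4.group K) (Fin d → ℂ)), σ.IsIrreducible →
        (σ.character ≠ fun _ => 1) → ∀ {w : H572.FR.W7 K}, w ≠ 0 → ‖σ.character (e (.ofAdd w))‖ ≤ 2 / 25 * d := by
  obtain ⟨ρ, hρ, hi⟩ := exists_J K
  exact H572.FR.exists_ratio h2 h5 hρ hi (sieg hρ h2 hi)

end Cfsg.Agent.H296.FR
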